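import Cfsg.Agent.H9.SLBasic
import Mathlib.FieldTheory.Finite.Basic

set_option autoImplicit false
set_option linter.unusedSimpArgs false

namespace Cfsg.Agent.H75

open Matrix Polynomial

abbrev SL2 (F : Type*) [Field F] := Matrix.SpecialLinearGroup (Fin 2) F

variable {F : Type*} [Field F]

theorem two_ne_zero_of_odd_card [Fintype F] (hF : Odd (Fintype.card F)) : (2 : F) ≠ 0 := by
  intro h
  have h1 : ringChar F = 2 := CharP.ringChar_of_prime_eq_zero Nat.prime_two h
  have h2 := (FiniteField.even_card_iff_char_two (F := F)).mp h1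
  rw [Nat.odd_iff] at hF
  omega

theorem exists_sq_add_sq [Fintype F] (hF : Odd (Fintype.card F)) (x : F) :
    ∃ a b : F, a ^ 2 + b ^ 2 = x := by
  obtain ⟨a, b, hab⟩ := FiniteField.exists_root_sum_quadratic (R := F) (f := X ^ 2)
    (g := X ^ 2 - C x) (degree_X_pow 2) (degree_X_pow_sub_C (by decide) _) (Nat.odd_iff.mp hF)
  refine ⟨a, b, ?_⟩
  simp only [eval_pow, eval_X, eval_sub, eval_C] at hab
  linear_combination hab

/-- The element of `SL₂` with given entries. -/
def sl2mk (a b c d : F) (h : a * d - b * c = 1) : SL2 F :=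
  ⟨!![a, b; c, d], by rw [Matrix.det_fin_two_of]; exact h⟩

theorem sl2_det (x : SL2 F) : x 0 0 * x 1 1 - x 0 1 * x 1 0 = 1 := by
  have := x.det_coe
  rwa [Matrix.det_fin_two] at this

theorem sl2_ext {x y : SL2 F} (h00 : x 0 0 = y 0 0) (h01 : x 0 1 = y 0 1) (h10 : x 1 0 = y 1 0)
    (h11 : x 1 1 = y 1 1) : x = y := by
  ext i j
  fin_cases i <;> fin_cases j <;> assumption

theorem sl2_ext_iff {x y : SL2 F} : x = y ↔
    x 0 0 = y 0 0 ∧ x 0 1 = y 0 1 ∧ x 1 0 = y 1 0 ∧ x 1 1 = y 1 1 :=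
  ⟨fun h => by simp [h], fun h => sl2_ext h.1 h.2.1 h.2.2.1 h.2.2.2⟩

theorem sl2_mul_apply (x y : SL2 F) (i j : Fin 2) :
    (x * y) i j = x i 0 * y 0 j + x i 1 * y 1 j := by
  show ((x : Matrix (Fin 2) (Fin 2) F) * (y : Matrix (Fin 2) (Fin 2) F)) i j = _
  rw [Matrix.mul_apply, Fin.sum_univ_two]

theorem sl2_one_00 : (1 : SL2 F) 0 0 = 1 := rfl
theorem sl2_one_01 : (1 : SL2 F) 0 1 = 0 := rfl
theorem sl2_one_10 : (1 : SL2 F) 1 0 = 0 := rfl
theorem sl2_one_11 : (1 : SL2 F) 1 1 = 1 := rfl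
theorem sl2_neg_apply (x : SL2 F) (i j : Fin 2) : (-x) i j = - x i j := rfl
theorem sl2mk_00 (a b c d : F) (h) : sl2mk a b c d h 0 0 = a := rfl
theorem sl2mk_01 (a b c d : F) (h) : sl2mk a b c d h 0 1 = b := rfl
theorem sl2mk_10 (a b c d : F) (h) : sl2mk a b c d h 1 0 = c := rfl
theorem sl2mk_11 (a b c d : F) (h) : sl2mk a b c d h 1 1 = d := rfl

theorem sl2_neg_one_ne_one (h2 : (2 : F) ≠ 0) : (-1 : SL2 F) ≠ 1 := by
  intro h
  simp only [sl2_ext_iff, sl2_mul_apply, sl2_one_00, sl2_one_01, sl2_one_10, sl2_one_11, sl2_neg_apply, sl2mk_00, sl2mk_01, sl2mk_10, sl2mk_11] at h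
  exact h2 (by linear_combination -h.1)

theorem sl2_mul_self_eq_one (h2 : (2 : F) ≠ 0) {x : SL2 F} (h : x * x = 1) : x = 1 ∨ x = -1 := by
  have hd := sl2_det x
  simp only [sl2_ext_iff, sl2_mul_apply, sl2_one_00, sl2_one_01, sl2_one_10, sl2_one_11, sl2_neg_apply, sl2mk_00, sl2mk_01, sl2mk_10, sl2mk_11] at h
  obtain ⟨h1, h3, h4, h5⟩ := h
  have ht : x 0 0 + x 1 1 ≠ 0 := by
    intro ht
    apply h2
    linear_combination (x 0 0) * ht - h1 - hd
  have hb : x 0 1 = 0 := by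
    apply mul_left_cancel₀ ht; linear_combination h3
  have hc : x 1 0 = 0 := by
    apply mul_left_cancel₀ ht; linear_combination h4
  have ha : (x 0 0 - 1) * (x 0 0 + 1) = 0 := by linear_combination h1 - x 1 0 * hb
  rcases mul_eq_zero.mp ha with ha | ha
  · left; simp only [sl2_ext_iff, sl2_mul_apply, sl2_one_00, sl2_one_01, sl2_one_10, sl2_one_11, sl2_neg_apply, sl2mk_00, sl2mk_01, sl2mk_10, sl2mk_11]
    refine ⟨by linear_combination ha, hb, hc, ?_⟩
    linear_combination hd - x 1 1 * ha + x 1 0 * hb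
  · right; simp only [sl2_ext_iff, sl2_mul_apply, sl2_one_00, sl2_one_01, sl2_one_10, sl2_one_11, sl2_neg_apply, sl2mk_00, sl2mk_01, sl2mk_10, sl2mk_11]
    refine ⟨by linear_combination ha, by rw [hb]; simp, by rw [hc]; simp, ?_⟩
    linear_combination -hd + x 1 1 * ha - x 1 0 * hb

theorem sl2_trace_of_mul_self {x : SL2 F} (h : x * x = -1) :
    x 1 1 = - x 0 0 := by
  have hd := sl2_det x
  simp only [sl2_ext_iff, sl2_mul_apply, sl2_one_00, sl2_one_01, sl2_one_10, sl2_one_11, sl2_neg_apply, sl2mk_00, sl2mk_01, sl2mk_10, sl2mk_11] at h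
  obtain ⟨h1, h3, h4, h5⟩ := h
  by_contra hne
  have ht : x 0 0 + x 1 1 ≠ 0 := fun ht => hne (by linear_combination ht)
  have hb : x 0 1 = 0 := by
    apply mul_left_cancel₀ ht; linear_combination h3
  apply ht
  have h6 : x 0 0 * (x 0 0 + x 1 1) = 0 := by linear_combination h1 + hd
  have h7 : x 0 0 ≠ 0 := by
    intro h0
    rw [h0, hb] at hd
    simp at hd
  exact (mul_eq_zero.mp h6).resolve_left h7

/-- The standard element of order four. -/
def sl2J : SL2 F := sl2mk 0 (-1) 1 0 (by simp)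

theorem sl2J_mul_self : (sl2J : SL2 F) * sl2J = -1 := by
  unfold sl2J; simp only [sl2_ext_iff, sl2_mul_apply, sl2_one_00, sl2_one_01, sl2_one_10, sl2_one_11, sl2_neg_apply, sl2mk_00, sl2mk_01, sl2mk_10, sl2mk_11]; simp

theorem exists_conj_sl2J [Fintype F] (hF : Odd (Fintype.card F)) {x : SL2 F} (h : x * x = -1) :
    ∃ g : SL2 F, g * sl2J * g⁻¹ = x := by
  have h2 := two_ne_zero_of_odd_card hF
  have ht := sl2_trace_of_mul_self h
  have hd := sl2_det x
  rw [ht] at hd
  obtain ⟨s, t, hst⟩ : ∃ s t : F, s * (x 1 0 * s - x 0 0 * t) - (x 0 0 * s + x 0 1 * t) * t = 1 := by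
    by_cases hr : x 1 0 = 0
    · have hp : x 0 0 ≠ 0 := by
        intro h0; rw [h0, hr] at hd; simp at hd
      refine ⟨-(1 + x 0 1) / (2 * x 0 0), 1, ?_⟩
      rw [hr]; field_simp; ring
    · obtain ⟨u, v, huv⟩ := exists_sq_add_sq hF (x 1 0)
      refine ⟨(u + x 0 0 * v) / x 1 0, v, ?_⟩
      field_simp
      linear_combination huv + v ^ 2 * hd
  refine ⟨sl2mk s (x 0 0 * s + x 0 1 * t) t (x 1 0 * s - x 0 0 * t) hst, ?_⟩
  rw [mul_inv_eq_iff_eq_mul]
  unfold sl2J
  simp only [sl2_ext_iff, sl2_mul_apply, sl2_one_00, sl2_one_01, sl2_one_10, sl2_one_11, sl2_neg_apply, sl2mk_00, sl2mk_01, sl2mk_10, sl2mk_11]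
  rw [ht]
  refine ⟨by ring, by linear_combination s * hd, by ring, by linear_combination t * hd⟩

theorem exists_conj_of_mul_self [Fintype F] (hF : Odd (Fintype.card F)) {x y : SL2 F}
    (hx : x * x = -1) (hy : y * y = -1) : ∃ g : SL2 F, g * x * g⁻¹ = y := by
  obtain ⟨g, rfl⟩ := exists_conj_sl2J hF hx
  obtain ⟨h, rfl⟩ := exists_conj_sl2J hF hy
  exact ⟨h * g⁻¹, by group⟩

theorem exists_inverting [Fintype F] (hF : Odd (Fintype.card F)) {x : SL2 F} (hx : x * x = -1) :
    ∃ y : SL2 F, y * y = -1 ∧ ∀ c : SL2 F, c * x = x * c → y * c * y⁻¹ = c⁻¹ := by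
  obtain ⟨g, rfl⟩ := exists_conj_sl2J hF hx
  obtain ⟨u, v, huv⟩ := exists_sq_add_sq hF (-1 : F)
  let y : SL2 F := sl2mk u v v (-u) (by linear_combination -huv)
  have hy : y * y = -1 := by
    simp only [y]; simp only [sl2_ext_iff, sl2_mul_apply, sl2_one_00, sl2_one_01, sl2_one_10, sl2_one_11, sl2_neg_apply, sl2mk_00, sl2mk_01, sl2mk_10, sl2mk_11]
    refine ⟨by linear_combination huv, by ring, by ring, by linear_combination huv⟩
  refine ⟨g * y * g⁻¹, ?_, fun c hc => ?_⟩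
  · calc g * y * g⁻¹ * (g * y * g⁻¹) = g * (y * y) * g⁻¹ := by group
      _ = -1 := by rw [hy]; simp
  · have h1 : (g⁻¹ * c * g) * sl2J = sl2J * (g⁻¹ * c * g) := by
      calc (g⁻¹ * c * g) * sl2J = g⁻¹ * (c * (g * sl2J * g⁻¹)) * g := by group
        _ = _ := by rw [hc]; group
    have h2 : (g⁻¹ * c * g) * y * (g⁻¹ * c * g) = y := by
      generalize g⁻¹ * c * g = d at h1
      have hd := sl2_det d
      unfold sl2J at h1
      simp only [y]
      simp only [sl2_ext_iff, sl2_mul_apply, sl2_one_00, sl2_one_01, sl2_one_10, sl2_one_11, sl2_neg_apply, sl2mk_00, sl2mk_01, sl2mk_10, sl2mk_11] at h1 ⊢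
      obtain ⟨e1, e2, -, -⟩ := h1
      have e3 : d 0 1 = - d 1 0 := by linear_combination e1
      have e4 : d 0 0 = d 1 1 := by linear_combination -e2
      rw [e3, e4] at hd ⊢
      refine ⟨by linear_combination u * hd, by linear_combination v * hd,
        by linear_combination v * hd, by linear_combination -u * hd⟩
    calc g * y * g⁻¹ * c * (g * y * g⁻¹)⁻¹
        = c⁻¹ * g * ((g⁻¹ * c * g) * y * (g⁻¹ * c * g)) * y⁻¹ * g⁻¹ := by group
      _ = c⁻¹ := by rw [h2]; group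

theorem sl2_scalar_of_entries {n : SL2 F} (hb : n 0 1 = 0) (hc : n 1 0 = 0) (ha : n 0 0 = n 1 1) :
    n = 1 ∨ n = -1 := by
  have hd := sl2_det n
  rw [hb, ← ha] at hd
  have : (n 0 0 - 1) * (n 0 0 + 1) = 0 := by linear_combination hd
  rcases mul_eq_zero.mp this with h | h
  · left; simp only [sl2_ext_iff, sl2_mul_apply, sl2_one_00, sl2_one_01, sl2_one_10, sl2_one_11, sl2_neg_apply, sl2mk_00, sl2mk_01, sl2mk_10, sl2mk_11]
    exact ⟨by linear_combination h, hb, hc, by linear_combination h - ha⟩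
  · right; simp only [sl2_ext_iff, sl2_mul_apply, sl2_one_00, sl2_one_01, sl2_one_10, sl2_one_11, sl2_neg_apply, sl2mk_00, sl2mk_01, sl2mk_10, sl2mk_11]
    exact ⟨by linear_combination h, by simp [hb], by simp [hc], by linear_combination h - ha⟩

/-- An element commuting with all its conjugates is central. -/
theorem sl2_central_of_commute_conj (h2 : (2 : F) ≠ 0) {n : SL2 F}
    (h : ∀ g : SL2 F, n * (g * n * g⁻¹) = (g * n * g⁻¹) * n) : n = 1 ∨ n = -1 := by
  have e1 : (sl2mk 1 1 0 1 (by simp) : SL2 F)⁻¹ = sl2mk 1 (-1) 0 1 (by simp) := by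
    rw [inv_eq_iff_mul_eq_one]; simp only [sl2_ext_iff, sl2_mul_apply, sl2_one_00, sl2_one_01, sl2_one_10, sl2_one_11, sl2_neg_apply, sl2mk_00, sl2mk_01, sl2mk_10, sl2mk_11]; simp
  have e2 : (sl2mk 1 0 1 1 (by simp) : SL2 F)⁻¹ = sl2mk 1 0 (-1) 1 (by simp) := by
    rw [inv_eq_iff_mul_eq_one]; simp only [sl2_ext_iff, sl2_mul_apply, sl2_one_00, sl2_one_01, sl2_one_10, sl2_one_11, sl2_neg_apply, sl2mk_00, sl2mk_01, sl2mk_10, sl2mk_11]; simp
  have h1 := h (sl2mk 1 1 0 1 (by simp))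
  have h3 := h (sl2mk 1 0 1 1 (by simp))
  rw [e1] at h1
  rw [e2] at h3
  simp only [sl2_ext_iff, sl2_mul_apply, sl2_one_00, sl2_one_01, sl2_one_10, sl2_one_11, sl2_neg_apply, sl2mk_00, sl2mk_01, sl2mk_10, sl2mk_11] at h1 h3
  have hc : n 1 0 = 0 := by
    have : 2 * (n 1 0) ^ 2 = 0 := by linear_combination h1.2.2.1
    simpa [h2] using this
  have hb : n 0 1 = 0 := by
    have : 2 * (n 0 1) ^ 2 = 0 := by linear_combination h3.2.1
    simpa [h2] using this
  have ha : n 0 0 = n 1 1 := by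
    have h4 := h1.2.1
    rw [hb, hc] at h4
    have : (n 0 0 - n 1 1) ^ 2 = 0 := by linear_combination -h4
    exact sub_eq_zero.mp (pow_eq_zero_iff (by norm_num) |>.mp this)
  exact sl2_scalar_of_entries hb hc ha

/-- The centralizer of a non-central element is abelian. -/
theorem sl2_commute_of_commute {m a b : SL2 F} (hm1 : m ≠ 1) (hm2 : m ≠ -1)
    (ha : a * m = m * a) (hb : b * m = m * b) : a * b = b * a := by
  simp only [sl2_ext_iff, sl2_mul_apply, sl2_one_00, sl2_one_01, sl2_one_10, sl2_one_11, sl2_neg_apply, sl2mk_00, sl2mk_01, sl2mk_10, sl2mk_11] at ha hb ⊢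
  obtain ⟨a1, a2, a3, a4⟩ := ha
  obtain ⟨b1, b2, b3, b4⟩ := hb
  by_cases h1 : m 0 1 = 0
  · by_cases h2 : m 1 0 = 0
    · have h3 : m 0 0 - m 1 1 ≠ 0 := by
        intro h
        rcases sl2_scalar_of_entries h1 h2 (sub_eq_zero.mp h) with h | h
        · exact hm1 h
        · exact hm2 h
      rw [h1] at a2 b2
      rw [h2] at a3 b3
      have c1 : a 0 1 = 0 := by apply mul_left_cancel₀ h3; linear_combination -a2
      have c2 : a 1 0 = 0 := by apply mul_left_cancel₀ h3; linear_combination a3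
      have c3 : b 0 1 = 0 := by apply mul_left_cancel₀ h3; linear_combination -b2
      have c4 : b 1 0 = 0 := by apply mul_left_cancel₀ h3; linear_combination b3
      rw [c1, c2, c3, c4]
      refine ⟨by ring, by ring, by ring, by ring⟩
    · have c1 : a 0 1 = 0 := by apply mul_left_cancel₀ h2; linear_combination a1 + a 1 0 * h1
      have c3 : b 0 1 = 0 := by apply mul_left_cancel₀ h2; linear_combination b1 + b 1 0 * h1
      rw [c1, c3]
      refine ⟨by ring, by ring, ?_, by ring⟩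
      apply mul_left_cancel₀ h2
      linear_combination b 1 0 * a3 - a 1 0 * b3
  · refine ⟨?_, ?_, ?_, ?_⟩ <;> apply mul_left_cancel₀ h1
    · linear_combination b 0 1 * a1 - a 0 1 * b1
    · linear_combination b 0 1 * a2 - a 0 1 * b2
    · apply mul_left_cancel₀ h1
      linear_combination m 0 1 * ((b 0 0 - b 1 1) * (-a1) + (a 0 0 - a 1 1) * b1) +
        m 1 0 * (a 0 1 * b2 - b 0 1 * a2)
    · linear_combination a 0 1 * b1 - b 0 1 * a1

/-- `SL₂` has no nontrivial homomorphism to a group of exponent two. -/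
theorem sl2_hom_eq_one (h2 : (2 : F) ≠ 0) {H : Type*} [Group H] (f : SL2 F →* H)
    (hf : ∀ x, f x * f x = 1) (x : SL2 F) : f x = 1 := by
  refine H9.sl_transvection_induction (fun x => f x = 1) (map_one f) ?_ ?_ x
  · intro i j hij c
    have : SpecialLinearGroup.transvection hij c =
        SpecialLinearGroup.transvection hij (c / 2) * SpecialLinearGroup.transvection hij (c / 2) := by
      rw [← SpecialLinearGroup.transvection_add]
      congr 1; field_simp; ring
    rw [this, map_mul, hf]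
  · intro A B hA hB
    rw [map_mul, hA, hB, one_mul]

end Cfsg.Agent.H75
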