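import Cfsg.Agent.H75.SL2Four
import Cfsg.Agent.H75.Invol

set_option autoImplicit false

namespace Cfsg.Agent.H75

variable {G : Type*} [Group G]

/-- Abstract properties of a subgroup `L ≅ SL₂(q)`, `q` odd, with involution `j`. -/
structure SL2Like (L : Subgroup G) (j : G) : Prop where
  mem : j ∈ L
  ord : orderOf j = 2
  sq : ∀ x ∈ L, x * x = 1 → x = 1 ∨ x = j
  central : ∀ x ∈ L, x * j = j * x
  conj : ∀ x ∈ L, ∀ y ∈ L, x * x = j → y * y = j → ∃ g ∈ L, g * x * g⁻¹ = y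
  inv : ∀ x ∈ L, x * x = j → ∃ y ∈ L, y * y = j ∧ ∀ c ∈ L, c * x = x * c → y * c * y⁻¹ = c⁻¹
  ex : ∃ x ∈ L, x * x = j
  cen_of_conj : ∀ n ∈ L, (∀ g ∈ L, n * (g * n * g⁻¹) = (g * n * g⁻¹) * n) → n = 1 ∨ n = j
  ca : ∀ m ∈ L, m ≠ 1 → m ≠ j → ∀ a ∈ L, ∀ b ∈ L, a * m = m * a → b * m = m * b → a * b = b * a
  hom : ∀ b : G, b * j = j * b → (∀ x ∈ L, x * b * x⁻¹ * b⁻¹ = 1 ∨ x * b * x⁻¹ * b⁻¹ = j) →
    ∀ x ∈ L, x * b = b * x

theorem sl2Like_of_equiv {F : Type*} [Field F] [Fintype F] (hF : Odd (Fintype.card F))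
    {L : Subgroup G} (e : L ≃* SL2 F) {j : G} (hj : orderOf j = 2) (hjL : j ∈ L) : SL2Like L j := by
  have h2 := two_ne_zero_of_odd_card hF
  have hj2 := mul_self_of_orderOf_two hj
  have hv : ∀ {a b : L}, e a = e b → (a : G) = b := fun h => congrArg Subtype.val (e.injective h)
  have hej : e ⟨j, hjL⟩ = -1 := by
    have : e ⟨j, hjL⟩ * e ⟨j, hjL⟩ = 1 := by
      rw [← map_mul, ← map_one e]; congr 1; exact Subtype.ext hj2
    rcases sl2_mul_self_eq_one h2 this with h | h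
    · exact absurd (hv (h.trans (map_one e).symm)) (ne_one_of_orderOf_two hj)
    · exact h
  have hsq : ∀ {x : G} (hx : x ∈ L), x * x = j → e ⟨x, hx⟩ * e ⟨x, hx⟩ = -1 := by
    intro x hx h
    rw [← map_mul, ← hej]; congr 1; exact Subtype.ext h
  have hcen : ∀ x ∈ L, x * j = j * x := by
    intro x hx
    apply hv (a := ⟨x, hx⟩ * ⟨j, hjL⟩) (b := ⟨j, hjL⟩ * ⟨x, hx⟩)
    rw [map_mul, map_mul, hej]; simp
  have hsq' : ∀ y : SL2 F, y * y = -1 → ((e.symm y : L) : G) * (e.symm y : L) = j := by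
    intro y hy
    apply hv (a := e.symm y * e.symm y) (b := ⟨j, hjL⟩)
    rw [map_mul, e.apply_symm_apply, hy, hej]
  refine ⟨hjL, hj, ?_, hcen, ?_, ?_, ⟨_, (e.symm sl2J).2, hsq' _ sl2J_mul_self⟩, ?_, ?_, ?_⟩
  · intro x hx h
    have : e ⟨x, hx⟩ * e ⟨x, hx⟩ = 1 := by
      rw [← map_mul, ← map_one e]; congr 1; exact Subtype.ext h
    rcases sl2_mul_self_eq_one h2 this with h | h
    · exact Or.inl (hv (h.trans (map_one e).symm))
    · exact Or.inr (hv (h.trans hej.symm))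
  · intro x hx y hy h1 h3
    obtain ⟨g, hg⟩ := exists_conj_of_mul_self hF (hsq hx h1) (hsq hy h3)
    refine ⟨e.symm g, (e.symm g).2, ?_⟩
    apply hv (a := e.symm g * ⟨x, hx⟩ * (e.symm g)⁻¹) (b := ⟨y, hy⟩)
    rw [map_mul, map_mul, map_inv, e.apply_symm_apply, hg]
  · intro x hx h1
    obtain ⟨y, hy, hc⟩ := exists_inverting hF (hsq hx h1)
    refine ⟨e.symm y, (e.symm y).2, hsq' y hy, fun c hcL hcx => ?_⟩
    apply hv (a := e.symm y * ⟨c, hcL⟩ * (e.symm y)⁻¹) (b := (⟨c, hcL⟩ : L)⁻¹)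
    rw [map_mul, map_mul, map_inv, map_inv, e.apply_symm_apply]
    apply hc
    rw [← map_mul, ← map_mul]; congr 1; exact Subtype.ext hcx
  · intro n hn h
    have := sl2_central_of_commute_conj h2 (n := e ⟨n, hn⟩) (fun g => by
      rw [← e.apply_symm_apply g, ← map_inv, ← map_mul, ← map_mul, ← map_mul, ← map_mul]
      congr 1
      exact Subtype.ext (h _ (e.symm g).2))
    rcases this with h | h
    · exact Or.inl (hv (h.trans (map_one e).symm))
    · exact Or.inr (hv (h.trans hej.symm))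
  · intro m hm h1 h3 a ha b hb h4 h5
    apply hv (a := ⟨a, ha⟩ * ⟨b, hb⟩) (b := ⟨b, hb⟩ * ⟨a, ha⟩)
    rw [map_mul, map_mul]
    apply sl2_commute_of_commute (m := e ⟨m, hm⟩)
    · exact fun h => h1 (hv (h.trans (map_one e).symm))
    · exact fun h => h3 (hv (h.trans hej.symm))
    · rw [← map_mul, ← map_mul]; congr 1; exact Subtype.ext h4
    · rw [← map_mul, ← map_mul]; congr 1; exact Subtype.ext h5
  · intro b hb h x hx
    have hc : ∀ y ∈ L, ∀ z ∈ L, y * (z * b * z⁻¹ * b⁻¹) = (z * b * z⁻¹ * b⁻¹) * y := by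
      intro y hy z hz
      rcases h z hz with h' | h' <;> rw [h']
      · simp
      · exact hcen y hy
    let f : L →* G :=
      { toFun := fun y => y * b * (y : G)⁻¹ * b⁻¹
        map_one' := by simp
        map_mul' := fun y z => by
          rw [Subgroup.coe_mul]
          calc (y : G) * z * b * ((y : G) * z)⁻¹ * b⁻¹
              = y * (z * b * (z : G)⁻¹ * b⁻¹) * b * (y : G)⁻¹ * b⁻¹ := by group
            _ = (z * b * (z : G)⁻¹ * b⁻¹) * (y * b * (y : G)⁻¹ * b⁻¹) := by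
              rw [hc y y.2 z z.2]; group
            _ = _ := by
              rcases h y y.2 with h' | h' <;> rcases h z z.2 with h'' | h'' <;> simp [h', h''] }
    have := sl2_hom_eq_one h2 (f.comp e.symm.toMonoidHom) (fun y => by
      rcases h _ (e.symm y).2 with h' | h'
      · have : f (e.symm y) = 1 := h'
        simp [this]
      · have : f (e.symm y) = j := h'
        simp [this, hj2]) (e ⟨x, hx⟩)
    have h3 : x * b * x⁻¹ * b⁻¹ = 1 := by simpa [f] using this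
    calc x * b = (x * b * x⁻¹ * b⁻¹) * (b * x) := by group
      _ = b * x := by rw [h3, one_mul]

theorem mem_sup_of_commute {A B : Subgroup G} (hc : ∀ x ∈ A, ∀ y ∈ B, x * y = y * x) {g : G} :
    g ∈ A ⊔ B ↔ ∃ a ∈ A, ∃ b ∈ B, a * b = g := by
  have hn : B ≤ Subgroup.normalizer (A : Set G) := by
    intro b hb
    rw [Subgroup.mem_normalizer_iff]
    intro a
    constructor
    · intro ha
      rwa [← hc a ha b hb, mul_inv_cancel_right]
    · intro ha
      have h1 := hc _ ha b hb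
      have : a = b * a * b⁻¹ := by
        calc a = b⁻¹ * (b * a * b⁻¹ * b) := by group
          _ = _ := by rw [h1]; group
      rwa [this]
  rw [← SetLike.mem_coe, Subgroup.coe_mul_of_right_le_normalizer_left A B hn, Set.mem_mul]
  rfl

end Cfsg.Agent.H75
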